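import Groth.Agent.Dcoh.KFlatFlip
import Groth.Agent.Dcoh.TMod
import Groth.Agent.Models2.FMExact

/-!
# Tensoring with a bounded above complex of modules flat over the base

For `q : Z ⟶ Y` and `G` a bounded above complex of `O_Z`-modules with terms flat over `Y`:
`G ⊗ q^*u` is a quasi-isomorphism for every quasi-isomorphism `u` of complexes on `Y`.
-/

set_option autoImplicit false

universe u

open CategoryTheory CategoryTheory.Limits AlgebraicGeometry

namespace Groth.Agent.Htor.H247.RelTensor

open Groth.Agent.Dcoh.KFlatAbs Groth.Agent.Dcoh.KFlatSingle Groth.Agent.Dcoh.KFlatBdd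
  Groth.Agent.Dcoh.KFlatFlip Groth.Agent.Dcoh.KFlatMod

variable {Z Y : Scheme.{u}} (q : Z ⟶ Y)

/-- `(K, M) ↦ K ⊗ q^* M` -/
noncomputable def RT : Z.Modules ⥤ Y.Modules ⥤ Z.Modules :=
  DCoh.tensorBi ⋙ (Functor.whiskeringLeft _ _ _).obj (Scheme.Modules.pullback q)

instance additive_pullback : (Scheme.Modules.pullback q).Additive := Models2.FMExact.additive_pullback q

instance additive_RT_obj (K : Z.Modules) : ((RT q).obj K).Additive :=
  inferInstanceAs (Scheme.Modules.pullback q ⋙ DCoh.tensorBi.obj K).Additive

instance additive_RT : (RT q).Additive := by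
  unfold RT; infer_instance

/-- `K ⊗ q^* -` is exact for `K` flat over `Y`. -/
theorem preservesHomology_RT_obj (K : Z.Modules) (hK : FlatMod.IsFlatOver q K) :
    ((RT q).obj K).PreservesHomology := by
  have h1 := Models2.FMExact.preservesFiniteLimits_G q K hK
  have e : (RT q).obj K ≅ Models2.FMExact.G q K :=
    Functor.isoWhiskerLeft (Scheme.Modules.pullback q) (Dcoh.TMod.braidIso K)
  have h2 : PreservesFiniteLimits ((RT q).obj K) := preservesFiniteLimits_of_natIso e.symm
  have h3 : PreservesFiniteColimits ((RT q).obj K) := preservesFiniteColimits_of_natIso e.symm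
  infer_instance

instance preservesColimits_RT_flip_obj (M : Y.Modules) :
    PreservesColimitsOfSize.{0, 0} ((RT q).flip.obj M) :=
  inferInstanceAs (PreservesColimitsOfSize.{0, 0}
    ((DCoh.tensorBi (X := Z)).flip.obj ((Scheme.Modules.pullback q).obj M)))

variable (G : CochainComplex Z.Modules ℤ) (b : ℤ) (hb : ∀ i : ℤ, b < i → IsZero (G.X i))
  (hG : ∀ i : ℤ, FlatMod.IsFlatOver q (G.X i))

include hb hG

/-- A bounded above complex of modules flat over `Y` is K-flat relative to `Y`. -/
theorem kfl_flip : KFl (RT q).flip G := by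
  have : G.IsStrictlyLE b := (CochainComplex.isStrictlyLE_iff G b).2 hb
  have h3 : HasExactColimitsOfShape ℕ Z.Modules := inferInstance
  exact kfl_of_isStrictlyLE (T := (RT q).flip) G b (fun n => preservesHomology_RT_obj q _ (hG n))

/-- `G ⊗ q^*u` is a quasi-isomorphism, for `G` a bounded above complex of modules flat over `Y` and `u` any
quasi-isomorphism of complexes on `Y`. -/
theorem quasiIso_map {M N : CochainComplex Y.Modules ℤ} (u : M ⟶ N) (hu : QuasiIso u) :
    QuasiIso ((DCoh.tensorCx.obj G).map
      (((Scheme.Modules.pullback q).mapHomologicalComplex (ComplexShape.up ℤ)).map u)) :=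
  quasiIso_of_kfl_flip (T := RT q) (kfl_flip q G b hb hG) u

end Groth.Agent.Htor.H247.RelTensor
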